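import Cfsg.Agent.ThreeDeg.Coprime
import Cfsg.Agent.DegreeOneP.Thompson
import Cfsg.Agent.DegreeOneP.TwoDegrees
import Cfsg.Agent.Transfer.Residual

/-!
# Three character degrees: solvable of derived length at most three
-/

set_option autoImplicit false
set_option linter.unusedSectionVars false
set_option linter.style.haveILetI false

namespace CfsgLib.ThreeDeg

open Cfsg CfsgLib.CharBasics
open scoped commutatorElement

universe u

variable {G : Type u} [Group G] [Finite G]

theorem derived_shift (L : Subgroup G) {i k : ℕ} (h : derivedSeries G i ≤ (derivedSeries L k).map L.subtype)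
    (j : ℕ) : derivedSeries G (i + j) ≤ (derivedSeries L (k + j)).map L.subtype := by
  induction j with
  | zero => simpa using h
  | succ j ih =>
    rw [← add_assoc, ← add_assoc, derivedSeries_succ, derivedSeries_succ, Subgroup.map_commutator]
    exact Subgroup.commutator_mono ih ih

/-- An abelian normal subgroup with nilpotent quotient of coprime order. -/
theorem abelian_case {a b : ℕ} (h : Three a b G) (hab : a ≤ b) (hb1 : 1 ≤ b) (L : Subgroup G) [L.Normal]
    [IsMulCommutative L] (hcop : L.index.Coprime (Nat.card L)) [Group.IsNilpotent (G ⧸ L)] :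
    derivedSeries G 3 = ⊥ := by
  classical
  obtain ⟨hQ3, hQ2⟩ := nilpotent_derived (h.quotient L) hab
  have hG3 : derivedSeries G 3 ≤ L := derived_le_of_quotient L hQ3
  have hfix : ∀ (φ : IrrCharacter L) (y : G), y ∈ derivedSeries G 2 → y ∈ Clifford.inertia (φ : L → ℂ) := by
    intro φ y hy
    set T := Clifford.inertia (φ : L → ℂ) with hT
    have hLT : L ≤ T := Clifford.le_inertia (isClassFunction (isCharacter_of_irr φ.2))
    obtain ⟨χ, t, -, hd, hTt⟩ := exists_over_dvd L φ
    have htb : T.index ≤ b := by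
      refine le_trans (Nat.le_of_dvd (Nat.pos_of_ne_zero fun h0 => ?_) hTt) ?_
      · exact (charDegree_pos χ.2).ne' (by rw [hd, h0, zero_mul])
      · have : t ≤ charDegree (χ : G → ℂ) := hd ▸ Nat.le_mul_of_pos_right t (charDegree_pos φ.2)
        rcases h χ with h | h | h <;> omega
    let π := QuotientGroup.mk' L
    have hidx : (T.map π).index = T.index :=
      Subgroup.index_map_eq _ (QuotientGroup.mk'_surjective L) (by rwa [QuotientGroup.ker_mk'])
    have hD : derivedSeries (G ⧸ L) 2 ≤ T.map π := le_of_small _ _ fun η hη z hz => by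
      rw [hidx] at hη
      rcases (h.quotient L) η with h1 | h1 | h1
      · exact GaloisDegree.apply_commutator_of_linear η.2 h1
          (derivedSeries_one (G ⧸ L) ▸ derivedSeries_antitone (G ⧸ L) (by norm_num) hz)
      · exact hQ2 η h1.le z hz
      · omega
    have h1 : π y ∈ T.map π := hD (map_derivedSeries_le_derivedSeries π 2 ⟨y, hy, rfl⟩)
    obtain ⟨z, hz, hzy⟩ := h1
    have h2 : z⁻¹ * y ∈ L := QuotientGroup.eq.1 hzy
    have := mul_mem hz (hLT h2)
    rwa [mul_inv_cancel_left] at this
  have hcen : ∀ y ∈ derivedSeries G 2, ∀ l ∈ L, y * l = l * y := by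
    intro y hy l hl
    by_contra hne
    have hyl : y * l * y⁻¹ ∈ L := (inferInstance : L.Normal).conj_mem l hl y
    obtain ⟨φ, hφ⟩ := GaloisDegree.exists_apply_ne (G := L) (n := ⟨y * l * y⁻¹, hyl⟩ * ⟨l, hl⟩⁻¹) fun e => hne (by
      have e' : y * l * y⁻¹ * l⁻¹ = 1 := congrArg Subtype.val e
      exact mul_inv_eq_iff_eq_mul.1 (mul_inv_eq_one.1 e'))
    obtain ⟨h1, h2⟩ := irr_comm_hom φ.2
    refine hφ ?_
    have h3 := congrFun (Clifford.mem_inertia.1 (hfix φ y hy)) ⟨l, hl⟩
    rw [Clifford.conjFun_apply] at h3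
    rw [h2, h3, ← h2, mul_inv_cancel, h1]
  rw [derivedSeries_succ, eq_bot_iff, Subgroup.commutator_le]
  intro x hx y hy
  rw [Subgroup.mem_bot, commutatorElement_eq_one_iff_mul_comm]
  refine DegreeOneP.eq_of_commutator_mem L hcop (hcen x hx) (hcen y hy) ?_
  rw [← commutatorElement_def]
  refine hG3 ?_
  rw [derivedSeries_succ]
  exact Subgroup.commutator_mem_commutator hx hy

theorem two_case {a b : ℕ} (h : Three a b G)
    (hdeg : a = 1 ∨ b = 1 ∨ a = b ∨ (∀ χ : IrrCharacter G, charDegree (χ : G → ℂ) ≠ a) ∨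
      ∀ χ : IrrCharacter G, charDegree (χ : G → ℂ) ≠ b) : derivedSeries G 2 = ⊥ := by
  rcases hdeg with rfl | rfl | rfl | hd | hd
  · exact twoDeg_derived (m := b) fun χ => by rcases h χ with h | h | h <;> tauto
  · exact twoDeg_derived (m := a) fun χ => by rcases h χ with h | h | h <;> tauto
  · exact twoDeg_derived (m := a) fun χ => by rcases h χ with h | h | h <;> tauto
  · exact twoDeg_derived (m := b) fun χ => by
      rcases h χ with h | h | h
      exacts [.inl h, absurd h (hd χ), .inr h]
  · exact twoDeg_derived (m := a) fun χ => by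
      rcases h χ with h | h | h
      exacts [.inl h, .inr h, absurd h (hd χ)]

/-- Induction step for a common prime. -/
theorem common_prime {a b r : ℕ} [Fact r.Prime] (h : Three a b G) (ha : 1 < a) (hb : 1 < b)
    (hra : r ∣ a) (hrb : r ∣ b) (hexa : ∃ χ : IrrCharacter G, charDegree (χ : G → ℂ) = a)
    (ih : ∀ (H : Subgroup G) (a b : ℕ), H ≠ ⊤ → Three a b H →
      Group.IsSolvable H ∧ derivedSeries H 3 = ⊥) :
    Group.IsSolvable G ∧ derivedSeries G 3 = ⊥ := by
  classical
  haveI := Fintype.ofFinite G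
  have hr : r.Prime := Fact.out
  set L := Cfsg.pResidual r G with hL
  haveI : L.Normal := Transfer.pResidual_normal (p := r) (G := G)
  have hrL : ¬ r ∣ Nat.card L := DegreeOneP.not_dvd_card_pResidual fun χ => by
    rcases h χ with h | h | h
    exacts [.inl h, .inr (h ▸ hra), .inr (h ▸ hrb)]
  obtain ⟨k, hk⟩ := Transfer.index_pResidual (p := r) (G := G)
  haveI : Group.IsNilpotent (G ⧸ L) :=
    (Transfer.isPGroup_quotient_pResidual (p := r) (G := G)).isNilpotent
  have hcop : L.index.Coprime (Nat.card L) := hk ▸ Nat.Coprime.pow_left k (hr.coprime_iff_not_dvd.2 hrL)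
  have hrG : r ∣ Nat.card G := by
    obtain ⟨χ, hχ⟩ := hexa
    exact hra.trans (hχ ▸ degree_dvd χ)
  have hLtop : L ≠ ⊤ := fun e => hrL (by rw [e, Subgroup.card_top]; exact hrG)
  -- the degrees of `L` are the parts prime to `r`
  set f : ℕ → ℕ := fun n => n / r ^ n.factorization r with hf
  have hL3 : Three (f a) (f b) L := fun θ => by
    obtain ⟨χ, t, ht, hd, -⟩ := exists_over_dvd L θ
    obtain ⟨j, -, rfl⟩ := (Nat.dvd_prime_pow hr).1 (hk ▸ ht)
    have hθr : ¬ r ∣ charDegree (θ : L → ℂ) := fun hd' => hrL (hd'.trans (degree_dvd θ))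
    have e : charDegree (θ : L → ℂ) = f (charDegree (χ : G → ℂ)) := by
      have hj : (r ^ j * charDegree (θ : L → ℂ)).factorization r = j := by
        rw [Nat.factorization_mul (pow_ne_zero _ hr.ne_zero) (charDegree_pos θ.2).ne', Finsupp.add_apply,
          hr.factorization_pow, Finsupp.single_eq_same, Nat.factorization_eq_zero_of_not_dvd hθr, add_zero]
      rw [hf, hd]
      simp only [hj]
      rw [Nat.mul_div_cancel_left _ (pow_pos hr.pos j)]
    rcases h χ with h | h | h
    · left; rw [e, h]; simp [hf]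
    · right; left; rw [e, h]
    · right; right; rw [e, h]
  obtain ⟨hLsol, hL3'⟩ := ih L _ _ hLtop hL3
  haveI := hLsol
  refine ⟨Group.isSolvable_of_ker_le_range L.subtype (QuotientGroup.mk' L)
    (by rw [QuotientGroup.ker_mk', Subgroup.range_subtype]), ?_⟩
  -- degrees of `G / L'` are powers of `r`
  set L' := (derivedSeries L 1).map L.subtype with hL'
  haveI : L'.Normal := by
    rw [hL', derivedSeries_one, commutator_def, Subgroup.map_commutator, ← MonoidHom.range_eq_map,
      Subgroup.range_subtype]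
    infer_instance
  have hpow : ∀ η : IrrCharacter (G ⧸ L'), f (charDegree (η : G ⧸ L' → ℂ)) = 1 := by
    intro η
    let π := QuotientGroup.mk' L'
    set A := L.map π with hA
    haveI : A.Normal := (inferInstance : L.Normal).map π (QuotientGroup.mk'_surjective L')
    haveI : IsMulCommutative A := ⟨⟨by
      rintro ⟨_, x, hx, rfl⟩ ⟨_, y, hy, rfl⟩
      refine Subtype.ext ?_
      show π x * π y = π y * π x
      rw [← commutatorElement_eq_one_iff_mul_comm, ← map_commutatorElement]
      refine (QuotientGroup.eq_one_iff _).2 ?_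
      rw [hL']
      refine ⟨⁅(⟨x, hx⟩ : L), ⟨y, hy⟩⁆, ?_, rfl⟩
      rw [derivedSeries_one, commutator_def]
      exact Subgroup.commutator_mem_commutator (Subgroup.mem_top _) (Subgroup.mem_top _)⟩⟩
    have hAi : A.index ∣ r ^ k := hk ▸ Subgroup.index_map_dvd _ (QuotientGroup.mk'_surjective L')
    obtain ⟨j, -, hj⟩ := (Nat.dvd_prime_pow hr).1 ((Clifford.ito_dvd η.2 A).trans hAi)
    rw [hj, hf]
    simp only [hr.factorization_pow, Finsupp.single_eq_same]
    exact Nat.div_self (pow_pos hr.pos j)
  have hle : (L'.map (QuotientGroup.mk' L') = ⊥) := by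
    rw [Subgroup.map_eq_bot_iff, QuotientGroup.ker_mk']
  by_cases ha' : f a = 1
  · by_cases hb' : f b = 1
    · -- `L` is abelian
      have hLc : IsMulCommutative L := ItoConverse.isMulCommutative_of_all_linear fun θ => by
        rcases hL3 θ with h | h | h
        exacts [h, h.trans ha', h.trans hb']
      haveI := hLc
      rcases le_total a b with hle' | hle'
      · exact abelian_case h hle' (by omega) L hcop
      · exact abelian_case h.symm hle' (by omega) L hcop
    · have h2 : derivedSeries G 2 ≤ L' := derived_le_of_quotient L' (two_case (h.quotient L')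
        (.inr (.inr (.inr (.inr fun η hη => hb' (hη ▸ hpow η))))))
      have hL2 : derivedSeries L 2 = ⊥ := two_case hL3 (.inl ha')
      have h3 := derived_shift L h2 1
      rwa [hL2, Subgroup.map_bot, le_bot_iff] at h3
  · by_cases hb' : f b = 1
    · have h2 : derivedSeries G 2 ≤ L' := derived_le_of_quotient L' (two_case (h.quotient L')
        (.inr (.inr (.inr (.inl fun η hη => ha' (hη ▸ hpow η))))))
      have hL2 : derivedSeries L 2 = ⊥ := two_case hL3 (.inr (.inl hb'))
      have h3 := derived_shift L h2 1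
      rwa [hL2, Subgroup.map_bot, le_bot_iff] at h3
    · have hlin : ∀ η : IrrCharacter (G ⧸ L'), charDegree (η : G ⧸ L' → ℂ) = 1 := fun η => by
        rcases (h.quotient L') η with h1 | h1 | h1
        exacts [h1, absurd (h1 ▸ hpow η) ha', absurd (h1 ▸ hpow η) hb']
      haveI := ItoConverse.isMulCommutative_of_all_linear hlin
      have h1 : derivedSeries G 1 ≤ L' := by
        rw [derivedSeries_one]
        exact Subgroup.Normal.quotient_commutative_iff_commutator_le.1 inferInstance
      have h3 := derived_shift L h1 2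
      rwa [hL3', Subgroup.map_bot, le_bot_iff] at h3

/-- **Three degrees.** -/
theorem main (n : ℕ) : ∀ (G : Type u) [Group G] [Finite G], Nat.card G = n → ∀ a b : ℕ, Three a b G →
    Group.IsSolvable G ∧ derivedSeries G 3 = ⊥ := by
  induction n using Nat.strong_induction_on with
  | _ n ih =>
  intro G _ _ hn a b h
  classical
  by_cases hdeg : a = 1 ∨ b = 1 ∨ a = b ∨ (∀ χ : IrrCharacter G, charDegree (χ : G → ℂ) ≠ a) ∨
      ∀ χ : IrrCharacter G, charDegree (χ : G → ℂ) ≠ b
  · have h2 := two_case h hdeg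
    exact ⟨⟨⟨2, h2⟩⟩, le_bot_iff.1 (h2 ▸ derivedSeries_antitone G (by norm_num))⟩
  push Not at hdeg
  obtain ⟨ha1, hb1, hab, ⟨χa, hχa⟩, ⟨χb, hχb⟩⟩ := hdeg
  have ha : 1 < a := by have := charDegree_pos χa.2; omega
  have hb : 1 < b := by have := charDegree_pos χb.2; omega
  by_cases hcop : a.Coprime b
  · have hsol : Group.IsSolvable G := coprime_solvable h ha hb hcop fun N hN hN0 => by
      have hlt : Nat.card (G ⧸ N) < n := by
        rw [← hn, ← Subgroup.index_eq_card, ← Subgroup.card_mul_index N]
        have h1 : 1 < Nat.card N := Subgroup.one_lt_card_iff_ne_bot N |>.2 hN0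
        exact lt_mul_of_one_lt_left (Nat.pos_of_ne_zero Subgroup.index_ne_zero_of_finite) h1
      exact (ih _ hlt (G ⧸ N) rfl a b (h.quotient N)).1
    exact ⟨hsol, coprime_derived h ha hb hcop ⟨χa, hχa⟩ ⟨χb, hχb⟩⟩
  · obtain ⟨r, hr, hra, hrb⟩ := Nat.Prime.not_coprime_iff_dvd.1 hcop
    haveI := Fact.mk hr
    exact common_prime h ha hb hra hrb ⟨χa, hχa⟩ fun H a' b' hH h' =>
      ih (Nat.card H) (hn ▸ lt_of_le_of_ne (Subgroup.card_le_card_group H)
        fun e => hH (Subgroup.eq_top_of_card_eq H e)) H rfl a' b' h'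

end CfsgLib.ThreeDeg
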