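import Cfsg.Agent.ThreeDeg.Frob
import Cfsg.Agent.S4591

/-!
# Two coprime nonlinear degrees: solvability and derived length
-/

set_option autoImplicit false
set_option linter.unusedSectionVars false
set_option linter.style.haveILetI false

namespace CfsgLib.ThreeDeg

open Cfsg CfsgLib.CharBasics
open scoped commutatorElement

universe u

variable {G : Type u} [Group G] [Finite G] {a b : ℕ}

/-- The derived length bound for solvable groups. -/
theorem coprime_derived [Group.IsSolvable G] (h3 : Three a b G) (ha : 1 < a) (hb : 1 < b) (hab : a.Coprime b)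
    (hexa : ∃ χ : IrrCharacter G, charDegree (χ : G → ℂ) = a)
    (hexb : ∃ χ : IrrCharacter G, charDegree (χ : G → ℂ) = b) : derivedSeries G 3 = ⊥ := by
  classical
  haveI := Fintype.ofFinite G
  -- a maximal normal subgroup with nonabelian quotient
  have hne : ¬ commutator G ≤ ⊥ := fun h => by
    obtain ⟨χ, hχ⟩ := hexa
    haveI : IsMulCommutative G := ⟨⟨fun x y => commutatorElement_eq_one_iff_mul_comm.1 (Subgroup.mem_bot.1 (h (by
      rw [commutator_def]; exact Subgroup.commutator_mem_commutator (Subgroup.mem_top x) (Subgroup.mem_top y))))⟩⟩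
    have := charDegree_comm χ.2
    omega
  obtain ⟨K, ⟨hKn, hK⟩, hmax⟩ := (Set.toFinite {K : Subgroup G | K.Normal ∧ ¬ commutator G ≤ K}).exists_maximal
    ⟨⊥, inferInstance, hne⟩
  haveI := hKn
  let π := QuotientGroup.mk' K
  have hQ : ¬ IsMulCommutative (G ⧸ K) := fun h => hK (Subgroup.Normal.quotient_commutative_iff_commutator_le.1 h)
  have hmapc : (commutator G).map π = commutator (G ⧸ K) := by
    rw [commutator_def, commutator_def, Subgroup.map_commutator,
      Subgroup.map_top_of_surjective π (QuotientGroup.mk'_surjective K)]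
  have hmin : ∀ M : Subgroup (G ⧸ K), M.Normal → M ≠ ⊥ → commutator (G ⧸ K) ≤ M := by
    intro M hM hM0
    rw [← hmapc, Subgroup.map_le_iff_le_comap]
    by_contra hno
    refine hM0 ?_
    have hle : K ≤ M.comap π := fun k hk => by
      rw [Subgroup.mem_comap, show π k = 1 from (QuotientGroup.eq_one_iff k).2 hk]
      exact M.one_mem
    have := hmax ⟨hM.comap π, hno⟩ hle
    refine (Subgroup.eq_bot_iff_forall M).2 fun y hy => ?_
    obtain ⟨g, rfl⟩ := QuotientGroup.mk'_surjective K y
    exact (QuotientGroup.eq_one_iff g).2 (this hy)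
  haveI : Group.IsSolvable (G ⧸ K) := Group.isSolvable_of_surjective (QuotientGroup.mk'_surjective K)
  rcases quotient_shape hQ hmin with ⟨q, hq, hQp⟩ | ⟨hf1, ⟨q, hq, hAp, hqf⟩, hAc, hfix, hcard⟩
  · exfalso
    obtain ⟨η, hη⟩ : ∃ η : IrrCharacter (G ⧸ K), charDegree (η : G ⧸ K → ℂ) ≠ 1 := by
      by_contra hc
      push Not at hc
      exact hQ (ItoConverse.isMulCommutative_of_all_linear hc)
    haveI := Fact.mk hq
    obtain ⟨k, hk⟩ := hQp.exists_card_eq
    have hηd : charDegree (η : G ⧸ K → ℂ) ∣ K.index := by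
      rw [Subgroup.index_eq_card]; exact degree_dvd η
    obtain ⟨i, -, hi⟩ := (Nat.dvd_prime_pow hq).1 (hk ▸ (Subgroup.index_eq_card K ▸ hηd))
    let β : IrrCharacter G := ⟨fun x => (η : G ⧸ K → ℂ) (π x),
      Clifford.isIrrCharacter_comp η.2 π (QuotientGroup.mk'_surjective K)⟩
    have hβd : charDegree (β : G → ℂ) = charDegree (η : G ⧸ K → ℂ) := by simp [β, charDegree]
    -- the other degree
    obtain ⟨χ, hχd, hχne⟩ : ∃ χ : IrrCharacter G, (charDegree (χ : G → ℂ)).Coprime K.index ∧
        (charDegree (β : G → ℂ) = a ∧ charDegree (χ : G → ℂ) = b ∨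
          charDegree (β : G → ℂ) = b ∧ charDegree (χ : G → ℂ) = a) := by
      have hcopK : ∀ {x y : ℕ}, x.Coprime y → charDegree (β : G → ℂ) = x → y.Coprime K.index := by
        intro x y hxy hx
        rw [Subgroup.index_eq_card, hk]
        refine Nat.Coprime.pow_right k ((hq.coprime_iff_not_dvd.2 fun hd => ?_).symm)
        rcases i with _ | i
        · exact hη (by rw [hi, pow_zero])
        · exact hq.not_dvd_one (hxy ▸ Nat.dvd_gcd (hx ▸ hβd ▸ hi ▸ dvd_pow_self q i.succ_ne_zero) hd)
      rcases (h3 β).resolve_left (hβd ▸ hη) with h | h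
      · obtain ⟨χ, hχ⟩ := hexb
        exact ⟨χ, hχ ▸ hcopK hab h, .inl ⟨h, hχ⟩⟩
      · obtain ⟨χ, hχ⟩ := hexa
        exact ⟨χ, hχ ▸ hcopK hab.symm h, .inr ⟨h, hχ⟩⟩
    haveI := Fintype.ofFinite K
    obtain ⟨θ, hθ⟩ := exists_restrict_constituent K χ
    obtain ⟨-, hres⟩ := CoprimeDegree.restrict_of_coprime hχd (θ := θ) (by
      rw [classInner_comm, Ne, map_eq_zero]; exact hθ)
    have hprod : IsIrrCharacter K ((fun _ => 1) * (θ : K → ℂ)) := by
      rw [show (fun _ => (1 : ℂ)) * (θ : K → ℂ) = (θ : K → ℂ) from funext fun n => one_mul _]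
      exact θ.2
    have hg := Clifford.gallagher_bijOn (φ := fun _ : K => (1 : ℂ)) isIrrCharacter_one (fun _ => rfl) hprod
      (isCharacter_of_irr χ.2) hres
    obtain ⟨hirr, -⟩ := hg.mapsTo (x := (β : G → ℂ)) ⟨β.2, (Clifford.mem_over_one_iff β.2).2 fun n hn => by
      show (η : G ⧸ K → ℂ) (π n) = (η : G ⧸ K → ℂ) (π 1)
      rw [show π n = 1 from (QuotientGroup.eq_one_iff n).2 hn, map_one]⟩
    have hd : charDegree (fun g => (β : G → ℂ) g * (χ : G → ℂ) g) = a * b := by
      have h1 : ((β : G → ℂ) * (χ : G → ℂ)) 1 = ((a * b : ℕ) : ℂ) := by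
        rw [Pi.mul_apply, apply_one_irr, apply_one_irr]
        rcases hχne with ⟨e1, e2⟩ | ⟨e1, e2⟩ <;> rw [e1, e2] <;> push_cast <;> ring
      have hirr' : IsIrrCharacter G ((β : G → ℂ) * (χ : G → ℂ)) := hirr
      rw [apply_one (isCharacter_of_irr hirr'), Nat.cast_inj] at h1
      exact h1
    rcases h3 ⟨_, hirr⟩ with h | h | h
    · change charDegree ((β : G → ℂ) * (χ : G → ℂ)) = 1 at h
      rw [show (β : G → ℂ) * (χ : G → ℂ) = fun g => (β : G → ℂ) g * (χ : G → ℂ) g from rfl, hd] at h
      have := Nat.eq_one_of_mul_eq_one_right h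
      omega
    · change charDegree ((β : G → ℂ) * (χ : G → ℂ)) = a at h
      rw [show (β : G → ℂ) * (χ : G → ℂ) = fun g => (β : G → ℂ) g * (χ : G → ℂ) g from rfl, hd] at h
      nlinarith
    · change charDegree ((β : G → ℂ) * (χ : G → ℂ)) = b at h
      rw [show (β : G → ℂ) * (χ : G → ℂ) = fun g => (β : G → ℂ) g * (χ : G → ℂ) g from rfl, hd] at h
      nlinarith
  -- the Frobenius case
  set N := (commutator (G ⧸ K)).comap π with hN
  haveI : N.Normal := (inferInstance : (commutator (G ⧸ K)).Normal).comap π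
  have hKN : K ≤ N := fun k hk => by
    rw [hN, Subgroup.mem_comap, show π k = 1 from (QuotientGroup.eq_one_iff k).2 hk]
    exact one_mem _
  have hGN : derivedSeries G 1 ≤ N := by
    rw [derivedSeries_one, hN, ← Subgroup.map_le_iff_le_comap, hmapc]
  have hidx : N.index = (commutator (G ⧸ K)).index :=
    Subgroup.index_comap_of_surjective _ (QuotientGroup.mk'_surjective K)
  have hrel : K.relIndex N = Nat.card (commutator (G ⧸ K)) := by
    have h1 := Subgroup.relIndex_mul_index hKN
    rw [hidx, Subgroup.index_eq_card K, ← Subgroup.card_mul_index (commutator (G ⧸ K))] at h1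
    exact Nat.eq_of_mul_eq_mul_right (Nat.pos_of_ne_zero Subgroup.index_ne_zero_of_finite) h1
  haveI := Fact.mk hq
  obtain ⟨k, hk⟩ := hAp.exists_card_eq
  have haff : ∀ θ : IrrCharacter N, ¬ q ∣ charDegree (θ : N → ℂ) →
      N.index * charDegree (θ : N → ℂ) = a ∨ N.index * charDegree (θ : N → ℂ) = b := by
    intro θ hθ
    obtain ⟨θ', hθ', hI⟩ := affine K N (fun x hx y hy => by
        rw [← QuotientGroup.eq_one_iff]
        show π (x * y * x⁻¹ * y⁻¹) = 1
        rw [map_mul, map_mul, map_mul, map_inv, map_inv, hAc _ hx _ hy, mul_inv_cancel_right, mul_inv_cancel])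
      (fun g hg n hn hmem => (QuotientGroup.eq_one_iff n).1 (hfix (π g) hg (π n) hn (by
        rw [← mul_inv_eq_one, ← map_inv, ← map_inv, ← map_mul, ← map_mul, ← map_mul]
        exact (QuotientGroup.eq_one_iff _).2 hmem)))
      (by rw [hrel, hidx]; exact hcard) θ
      (by rw [hrel, hk]; exact Nat.Coprime.pow_right k ((hq.coprime_iff_not_dvd.2 hθ).symm))
    obtain ⟨χ, t, ht, hd, hI'⟩ := exists_over_dvd N θ'
    rw [hI] at hI'
    rw [Nat.dvd_antisymm ht hI', hθ'] at hd
    rcases h3 χ with h | h | h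
    · exfalso
      rw [hd] at h
      have := Nat.eq_one_of_mul_eq_one_right h
      omega
    · exact .inl (hd ▸ h)
    · exact .inr (hd ▸ h)
  have hone : charDegree ((oneChar : IrrCharacter N) : N → ℂ) = 1 := by simp [charDegree, oneChar]
  -- the index is one of the degrees, the nonlinear degree of `N` is the other
  obtain ⟨m, hf, hcop, h3'⟩ : ∃ m, 1 < m ∧ N.index.Coprime m ∧ Three N.index m G := by
    rcases haff oneChar (by rw [hone]; exact hq.not_dvd_one) with h | h <;> rw [hone, mul_one] at h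
    · exact ⟨b, hb, h ▸ hab, h ▸ h3⟩
    · exact ⟨a, ha, h ▸ hab.symm, h ▸ h3.symm⟩
  have haff' : ∀ θ : IrrCharacter N, ¬ q ∣ charDegree (θ : N → ℂ) → charDegree (θ : N → ℂ) = 1 := by
    intro θ hθ
    have h1 := haff oneChar (by rw [hone]; exact hq.not_dvd_one)
    rw [hone, mul_one] at h1
    by_contra hne
    have hpos := charDegree_pos θ.2
    have h2 := haff θ hθ
    have key : ∀ x y : ℕ, x.Coprime y → N.index = x → N.index * charDegree (θ : N → ℂ) = y → False := by
      intro x y hxy hx hy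
      have : x ∣ Nat.gcd x y := Nat.dvd_gcd dvd_rfl (hy ▸ hx ▸ Dvd.intro _ rfl)
      rw [hxy.gcd_eq_one, Nat.dvd_one] at this
      omega
    have key2 : ∀ x : ℕ, N.index = x → N.index * charDegree (θ : N → ℂ) = x → False := by
      intro x hx hy
      exact hne (Nat.eq_of_mul_eq_mul_left (by omega : 0 < N.index) (by rw [hy, mul_one, hx]))
    rcases h1 with h1 | h1 <;> rcases h2 with h2 | h2
    exacts [key2 a h1 h2, key a b hab h1 h2, key b a hab.symm h1 h2, key2 b h1 h2]
  have htwo : DegreeOneP.TwoDeg m N := by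
    intro θ
    by_cases hθ : q ∣ charDegree (θ : N → ℂ)
    · right
      obtain ⟨χ, t, ht, hd, -⟩ := exists_over_dvd N θ
      rcases h3' χ with h | h | h
      · exfalso
        exact hq.not_dvd_one (hθ.trans (h ▸ hd ▸ Dvd.intro_left t rfl))
      · exfalso
        exact (hidx ▸ hqf) (hθ.trans (h ▸ hd ▸ Dvd.intro_left t rfl))
      · have ht1 : t ∣ Nat.gcd N.index m := Nat.dvd_gcd ht (h ▸ hd ▸ Dvd.intro _ rfl)
        rw [hcop.gcd_eq_one, Nat.dvd_one] at ht1
        rw [← h, hd, ht1, one_mul]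
    · exact .inl (haff' θ hθ)
  have h1 := derived_add_le N 2 hGN
  rwa [twoDeg_derived htwo, Subgroup.map_bot, le_bot_iff] at h1

/-- Minimal counterexamples to solvability do not have coprime degrees. -/
theorem coprime_solvable (h3 : Three a b G) (ha : 1 < a) (hb : 1 < b) (hab : a.Coprime b)
    (hquot : ∀ (N : Subgroup G) [_hN : N.Normal], N ≠ ⊥ → Group.IsSolvable (G ⧸ N)) : Group.IsSolvable G := by
  classical
  haveI := Fintype.ofFinite G
  by_contra hns
  haveI : Nontrivial G := by
    rcases subsingleton_or_nontrivial G with h | h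
    · exact absurd (inferInstance : Group.IsSolvable G) hns
    · exact h
  obtain ⟨N, ⟨hNn, hN0⟩, hNmin⟩ := (Set.toFinite {N : Subgroup G | N.Normal ∧ N ≠ ⊥}).exists_minimal
    ⟨⊤, inferInstance, top_ne_bot⟩
  haveI := hNn
  -- `N` lies in every nontrivial normal subgroup
  have hle : ∀ M : Subgroup G, M.Normal → M ≠ ⊥ → N ≤ M := by
    intro M hM hM0
    by_contra hno
    have hbot : M ⊓ N = ⊥ := by
      by_contra h
      exact hno (le_trans (hNmin ⟨inferInstance, h⟩ inf_le_right) inf_le_left)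
    haveI := hquot M hM0
    haveI := hquot N hN0
    refine hns (Group.isSolvable_of_isSolvable_injective (f := (QuotientGroup.mk' M).prod (QuotientGroup.mk' N)) ?_)
    rw [← MonoidHom.ker_eq_bot_iff, MonoidHom.ker_prod, QuotientGroup.ker_mk', QuotientGroup.ker_mk', hbot]
  haveI := hquot N hN0
  have hNns : ¬ Group.IsSolvable N := fun h => hns
    (Group.isSolvable_of_ker_le_range N.subtype (QuotientGroup.mk' N) (by rw [QuotientGroup.ker_mk', Subgroup.range_subtype]))
  have hZ : Subgroup.center G = ⊥ := by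
    by_contra h
    haveI : IsMulCommutative N := ⟨⟨fun x y => Subtype.ext
      (Subgroup.mem_center_iff.1 (hle _ inferInstance h y.2) x)⟩⟩
    exact hNns (Group.isSolvable_of_comm fun x y => mul_comm' x y)
  have hNc : N ≤ commutator G := hle _ inferInstance fun h => hns (Group.isSolvable_of_comm fun x y =>
    commutatorElement_eq_one_iff_mul_comm.1 (Subgroup.mem_bot.1 (h ▸ (by
      rw [commutator_def]; exact Subgroup.commutator_mem_commutator (Subgroup.mem_top x) (Subgroup.mem_top y) :
      ⁅x, y⁆ ∈ commutator G))))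
  have hfaith : ∀ χ : IrrCharacter G, (∃ n ∈ N, (χ : G → ℂ) n ≠ (χ : G → ℂ) 1) →
      ∀ g : G, g ≠ 1 → ‖(χ : G → ℂ) g‖ ≠ (charDegree (χ : G → ℂ) : ℝ) := by
    intro χ ⟨n, hn, hne⟩ g hg heq
    have hc := isCharacter_of_irr χ.2
    have hker : charKer (χ : G → ℂ) hc = ⊥ := by
      by_contra h
      exact hne ((mem_charKer hc n).1 (hle _ (charKer_normal hc) h hn))
    refine hg (Subgroup.mem_bot.1 (hZ ▸ Subgroup.mem_center_iff.2 fun x => ?_))
    have h1 : x * g * x⁻¹ * g⁻¹ ∈ charKer (χ : G → ℂ) hc := (mem_charKer hc _).2 (commutator_mem_charKer χ.2 heq x)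
    rw [hker, Subgroup.mem_bot, mul_inv_eq_one, mul_inv_eq_iff_eq_mul] at h1
    exact h1
  have hex : ∀ {a b : ℕ}, Three a b G → a.Coprime b →
      ∃ χ : IrrCharacter G, charDegree (χ : G → ℂ) = a ∧ ∃ n ∈ N, (χ : G → ℂ) n ≠ (χ : G → ℂ) 1 := by
    intro a b h3 hab
    by_contra hno
    push Not at hno
    obtain ⟨θ, hθ⟩ : ∃ θ : IrrCharacter N, charDegree (θ : N → ℂ) ≠ 1 := by
      by_contra hc
      push Not at hc
      haveI := ItoConverse.isMulCommutative_of_all_linear hc
      exact hNns (Group.isSolvable_of_comm fun x y => mul_comm' x y)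
    obtain ⟨p, hp, hpθ⟩ := Nat.exists_prime_and_dvd hθ
    haveI := Fact.mk hp
    haveI := Fintype.ofFinite N
    obtain ⟨χ, e, he0, hdeg, he⟩ := ItoConverse.exists_over N θ
    have hχN : ∃ n ∈ N, (χ : G → ℂ) n ≠ (χ : G → ℂ) 1 := by
      by_contra hall
      push Not at hall
      have h1 := he
      have hconst : (fun n : N => (χ : G → ℂ) n) = ((χ : G → ℂ) 1) • (fun _ : N => (1 : ℂ)) := by
        funext n; simp [hall n n.2]
      rw [hconst, classInner_smul_left, classInner_ne (isIrrCharacter_one (G := N)) θ.2 fun h => hθ (by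
        simp [charDegree, ← h]), mul_zero] at h1
      exact he0.ne' (Nat.cast_eq_zero.1 h1.symm)
    have hpχ : p ∣ charDegree (χ : G → ℂ) := hpθ.trans (hdeg ▸ Dvd.intro_left _ rfl)
    have hpb : p ∣ b := by
      rcases h3 χ with h | h | h
      · exact absurd (h ▸ hpχ) hp.not_dvd_one
      · obtain ⟨n, hn, hne⟩ := hχN
        exact absurd (hno χ h n hn) hne
      · exact h ▸ hpχ
    -- every degree prime to `p` is trivial on `N`
    obtain ⟨P⟩ : Nonempty (Sylow p G) := inferInstance
    have hNP : N ⊓ (P : Subgroup G) ≠ ⊥ := by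
      intro h
      have hpN : p ∣ Nat.card N := hpθ.trans (degree_dvd θ)
      obtain ⟨x, hx⟩ := exists_prime_orderOf_dvd_card' p hpN
      have hxp : IsPGroup p (Subgroup.zpowers (x : G)) := IsPGroup.of_card (n := 1) (by
        rw [Nat.card_zpowers, Subgroup.orderOf_coe, hx, pow_one])
      obtain ⟨R, hR⟩ := hxp.exists_le_sylow
      obtain ⟨g, hg⟩ := MulAction.exists_smul_eq G R P
      have hmem : MulAut.conj g (x : G) ∈ N ⊓ (P : Subgroup G) := Subgroup.mem_inf.2 ⟨by
        simpa using hNn.conj_mem (x : G) x.2 g, by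
        rw [← hg]; exact ⟨(x : G), hR (Subgroup.mem_zpowers _), rfl⟩⟩
      rw [h, Subgroup.mem_bot] at hmem
      have h1 : (x : G) = 1 := (MulAut.conj g).injective (hmem.trans (map_one _).symm)
      rw [← Subgroup.orderOf_coe, h1, orderOf_one] at hx
      exact hp.one_lt.ne hx
    have hNC : ∀ L : Subgroup G, L.Normal → L ⊓ Subgroup.centralizer ((P : Subgroup G) : Set G) = ⊥ → L ≤ ⊥ := by
      intro L hL hLC
      by_contra hne
      have hNL := hle L hL fun h => hne h.le
      haveI : Group.IsNilpotent (P : Subgroup G) := P.2.isNilpotent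
      have hne' : N.subgroupOf (P : Subgroup G) ≠ ⊥ := fun h' => hNP (disjoint_iff.1 (Subgroup.subgroupOf_eq_bot.1 h'))
      obtain ⟨⟨z, hz⟩, hz1⟩ := Subgroup.ne_bot_iff_exists_ne_one.1
        (Hall.Struct.inf_center_ne_bot (N.subgroupOf (P : Subgroup G)) hne')
      obtain ⟨hzN, hzZ⟩ := Subgroup.mem_inf.1 hz
      have hmem : (z : G) ∈ L ⊓ Subgroup.centralizer ((P : Subgroup G) : Set G) :=
        Subgroup.mem_inf.2 ⟨hNL (Subgroup.mem_subgroupOf.1 hzN), Subgroup.mem_centralizer_iff.2 fun y hy =>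
          congrArg Subtype.val (Subgroup.mem_center_iff.1 hzZ ⟨y, hy⟩)⟩
      rw [hLC, Subgroup.mem_bot] at hmem
      exact hz1 (Subtype.ext (Subtype.ext hmem))
    have hset := Cfsg.Agent.S4591.result p P (⊥ : Subgroup G) (bot_inf_eq _) hNC
    have hNP' : N ≤ (P : Subgroup G) := by
      intro n hn
      have hmem : n ∈ {g : G | ∀ χ : IrrCharacter G, ¬ p ∣ charDegree (χ : G → ℂ) →
          (χ : G → ℂ) g = (χ : G → ℂ) 1} := fun η hη => by
        rcases h3 η with h | h | h
        · exact GaloisDegree.apply_commutator_of_linear η.2 h (hNc hn)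
        · exact hno η h n hn
        · exact absurd (h ▸ hpb) hη
      rw [hset] at hmem
      have h2 := Subgroup.normalCore_le _ hmem
      rw [bot_sup_eq] at h2
      exact (Subgroup.commutator_le.2 fun x hx y hy => mul_mem (mul_mem (mul_mem hx hy) (inv_mem hx)) (inv_mem hy) :
        ⁅(P : Subgroup G), (P : Subgroup G)⁆ ≤ (P : Subgroup G)) h2
    haveI : Group.IsNilpotent N := (P.2.to_le hNP').isNilpotent
    exact hNns inferInstance
  obtain ⟨χ, hχ, hχN⟩ := hex h3 hab
  obtain ⟨ψ, hψ, hψN⟩ := hex h3.symm hab.symm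
  exact false_of_two h3 ha hb hab χ ψ hχ hψ (hχ ▸ hfaith χ hχN) (hψ ▸ hfaith ψ hψN)

end CfsgLib.ThreeDeg
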