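import Cfsg.Agent.CharBasics.Extra
import Cfsg.Agent.CharBasics.Burnside
import Cfsg.Agent.Clifford.RepBasic
import Cfsg.Agent.Clifford.LinChar

/-!
# No centreless group has two faithful coprime degrees and nothing else
-/

set_option autoImplicit false
set_option linter.unusedSectionVars false

namespace CfsgLib.ThreeDeg

open Cfsg CfsgLib.CharBasics
open scoped ComplexConjugate

universe u

variable {G : Type u} [Group G]

/-- Every degree is `1`, `a` or `b`. -/
def Three (a b : ℕ) (G : Type u) [Group G] : Prop :=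
  ∀ χ : IrrCharacter G, charDegree (χ : G → ℂ) = 1 ∨ charDegree (χ : G → ℂ) = a ∨ charDegree (χ : G → ℂ) = b

theorem Three.symm {a b : ℕ} (h : Three a b G) : Three b a G := fun χ => by
  rcases h χ with h | h | h
  exacts [.inl h, .inr (.inr h), .inr (.inl h)]

theorem apply_one_irr (χ : IrrCharacter G) : (χ : G → ℂ) 1 = (charDegree (χ : G → ℂ) : ℂ) :=
  apply_one (isCharacter_of_irr χ.2)

variable [Fintype G]

theorem irr_star {χ : G → ℂ} (h : IsIrrCharacter G χ) : IsIrrCharacter G (fun g => conj (χ g)) := by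
  refine isIrr_of_norm_one (isCharacter_star (isCharacter_of_irr h)) ?_
  have h1 := congrArg conj (classInner_self h)
  rw [classInner_eq, map_one, map_mul, map_inv₀, map_natCast, map_sum] at h1
  rw [classInner_eq, ← h1]
  congr 1
  exact Finset.sum_congr rfl fun g _ => by rw [map_mul]

theorem inner_mul_right (ξ ψ η : G → ℂ) :
    classInner (fun g => ξ g * ψ g) η = classInner ξ (fun g => η g * conj (ψ g)) := by
  simp only [classInner_eq, map_mul, Complex.conj_conj]
  congr 1
  exact Finset.sum_congr rfl fun g _ => by ring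

theorem inner_swap {φ ψ : G → ℂ} (h : classInner φ ψ ≠ 0) : classInner ψ φ ≠ 0 := by
  rw [classInner_comm φ ψ, Ne, map_eq_zero]
  exact h

/-- A constituent of a sum is a constituent of a summand, and the summand is one of the sum. -/
theorem exists_part {f : G → ℂ} (hf : IsCharacter G f) (w : G → ℂ) {η : G → ℂ}
    (hne : classInner (fun g => f g * w g) η ≠ 0) :
    ∃ ξ : IrrCharacter G, classInner f (ξ : G → ℂ) ≠ 0 ∧ classInner (fun g => (ξ : G → ℂ) g * w g) η ≠ 0 := by
  classical
  obtain ⟨r, F, hF, rfl⟩ := exists_decomp hf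
  have he : (fun g => (∑ i, F i) g * w g) = ∑ i, fun g => F i g * w g := by
    funext g
    simp [Finset.sum_apply, Finset.sum_mul]
  rw [he, classInner_sum_left] at hne
  obtain ⟨i, -, hi⟩ := Finset.exists_ne_zero_of_sum_ne_zero hne
  refine ⟨⟨F i, hF i⟩, ?_, hi⟩
  rw [classInner_sum_left]
  intro h0
  have h1 : ∀ j, classInner (F j) (F i) = if F j = F i then 1 else 0 := fun j => by
    by_cases h : F j = F i
    · rw [if_pos h, h, classInner_self (hF i)]
    · rw [if_neg h, classInner_ne (hF j) (hF i) h]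
  rw [Finset.sum_congr rfl (fun j _ => h1 j), Finset.sum_boole, Nat.cast_eq_zero,
    Finset.card_eq_zero] at h0
  exact Finset.eq_empty_iff_forall_notMem.1 h0 i (by simp)

/-- All constituents of `f` have degree `a`. -/
def AllDeg (a : ℕ) (f : G → ℂ) : Prop :=
  ∀ η : IrrCharacter G, classInner f (η : G → ℂ) ≠ 0 → charDegree (η : G → ℂ) = a

variable {a b : ℕ}

/-- The constituents of a product of the two degrees share one of them. -/
theorem dichotomy (h3 : Three a b G) (ha : 1 < a) (hb : 1 < b) (hab : a.Coprime b) (χ ψ : IrrCharacter G)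
    (hχ : charDegree (χ : G → ℂ) = a) (hψ : charDegree (ψ : G → ℂ) = b) :
    AllDeg a (fun g => (χ : G → ℂ) g * (ψ : G → ℂ) g) ∨ AllDeg b (fun g => (χ : G → ℂ) g * (ψ : G → ℂ) g) := by
  classical
  have hne : a ≠ b := fun h => by subst h; rw [Nat.coprime_self] at hab; omega
  have hc : IsCharacter G (fun g => (χ : G → ℂ) g * (ψ : G → ℂ) g) :=
    Clifford.isCharacter_mul (isCharacter_of_irr χ.2) (isCharacter_of_irr ψ.2)
  have hnl : ∀ η : IrrCharacter G, classInner (fun g => (χ : G → ℂ) g * (ψ : G → ℂ) g) (η : G → ℂ) ≠ 0 →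
      charDegree (η : G → ℂ) = a ∨ charDegree (η : G → ℂ) = b := by
    intro η hη
    refine (h3 η).resolve_left fun h1 => hη ?_
    obtain ⟨μ, hμ⟩ := Clifford.exists_hom_of_linear (isCharacter_of_irr η.2) (by rw [apply_one_irr, h1, Nat.cast_one])
    rw [inner_mul_right]
    have hirr : IsIrrCharacter G (fun g => μ g * conj ((ψ : G → ℂ) g)) :=
      Clifford.isIrrCharacter_linear_mul (irr_star ψ.2) μ
    have e : (fun g => (η : G → ℂ) g * conj ((ψ : G → ℂ) g)) = fun g => μ g * conj ((ψ : G → ℂ) g) := by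
      funext g; rw [hμ]
    rw [e]
    refine classInner_ne χ.2 hirr fun hh => hne ?_
    have h2 := congrFun hh 1
    simp only [map_one, one_mul, apply_one_irr, Complex.conj_natCast, hχ, hψ, Nat.cast_inj] at h2
    exact h2
  obtain ⟨r, F, hF, hdec⟩ := exists_decomp hc
  have hmem : ∀ i, classInner (fun g => (χ : G → ℂ) g * (ψ : G → ℂ) g) (F i) ≠ 0 := by
    intro i
    rw [hdec, classInner_sum_left]
    intro h0
    have h1 : ∀ j, classInner (F j) (F i) = if F j = F i then 1 else 0 := fun j => by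
      by_cases h : F j = F i
      · rw [if_pos h, h, classInner_self (hF i)]
      · rw [if_neg h, classInner_ne (hF j) (hF i) h]
    rw [Finset.sum_congr rfl (fun j _ => h1 j), Finset.sum_boole, Nat.cast_eq_zero,
      Finset.card_eq_zero] at h0
    exact Finset.eq_empty_iff_forall_notMem.1 h0 i (by simp)
  have hsum : a * b = ∑ i, charDegree (F i) := by
    have h1 := congrFun hdec 1
    rw [Finset.sum_apply, apply_one_irr, apply_one_irr, hχ, hψ,
      Finset.sum_congr rfl (fun i _ => apply_one (isCharacter_of_irr (hF i))), ← Nat.cast_mul, ← Nat.cast_sum,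
      Nat.cast_inj] at h1
    exact h1
  have hF2 : ∀ i, charDegree (F i) = a ∨ charDegree (F i) = b := fun i => hnl ⟨F i, hF i⟩ (hmem i)
  set A := Finset.univ.filter (fun i => charDegree (F i) = a) with hA
  set B := Finset.univ.filter (fun i => charDegree (F i) = b) with hB
  have hsplit : a * b = A.card * a + B.card * b := by
    rw [hsum, ← Finset.sum_filter_add_sum_filter_not Finset.univ (fun i => charDegree (F i) = a)]
    congr 1
    · rw [Finset.sum_congr rfl (fun i hi => (Finset.mem_filter.1 hi).2), Finset.sum_const, smul_eq_mul]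
    · rw [Finset.sum_congr rfl (g := fun _ => b) (fun i hi => (hF2 i).resolve_left (Finset.mem_filter.1 hi).2),
        Finset.sum_const, smul_eq_mul]
      congr 2
      ext i
      simp only [hB, Finset.mem_filter, Finset.mem_univ, true_and]
      exact ⟨fun h => (hF2 i).resolve_left h, fun h h' => hne (h'.symm.trans h)⟩
  obtain ⟨k, hk⟩ : a ∣ B.card := by
    refine hab.dvd_of_dvd_mul_right ((Nat.dvd_add_right (Dvd.intro_left A.card rfl)).1 ?_)
    exact hsplit ▸ Dvd.intro b rfl
  have hpick : ∀ η : IrrCharacter G, classInner (fun g => (χ : G → ℂ) g * (ψ : G → ℂ) g) (η : G → ℂ) ≠ 0 →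
      ∃ i, F i = (η : G → ℂ) := by
    intro η hη
    by_contra hno
    push Not at hno
    refine hη ?_
    rw [hdec, classInner_sum_left]
    exact Finset.sum_eq_zero fun i _ => classInner_ne (hF i) η.2 (hno i)
  rcases Nat.eq_zero_or_pos k with rfl | hk0
  · left
    intro η hη
    obtain ⟨i, hi⟩ := hpick η hη
    refine hi ▸ (hF2 i).resolve_right fun h => ?_
    have : i ∈ B := by simp [hB, h]
    have := Finset.card_pos.2 ⟨i, this⟩
    omega
  · right
    intro η hη
    obtain ⟨i, hi⟩ := hpick η hη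
    refine hi ▸ (hF2 i).resolve_left fun h => ?_
    have : i ∈ A := by simp [hA, h]
    have h2 : 0 < A.card * a := Nat.mul_pos (Finset.card_pos.2 ⟨i, this⟩) (by omega)
    have h3 : a * b ≤ B.card * b := by rw [hk]; exact Nat.mul_le_mul_right _ (Nat.le_mul_of_pos_right _ hk0)
    omega

theorem sum_mul_eval (χ : G → ℂ) (F : G → ℂ) (h : ∀ n : ℕ, ∑ g, χ g * F g ^ n = 0) (P : Polynomial ℂ) :
    ∑ g, χ g * P.eval (F g) = 0 := by
  induction P using Polynomial.induction_on' with
  | add p q hp hq => simp [mul_add, Finset.sum_add_distrib, hp, hq]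
  | monomial n c =>
    simp only [Polynomial.eval_monomial]
    rw [Finset.sum_congr rfl (g := fun g => c * (χ g * F g ^ n)) (fun g _ => by ring), ← Finset.mul_sum, h n,
      mul_zero]

/-- The product of two such degrees cannot lie in the first one. -/
theorem not_allDeg (h3 : Three a b G) (ha : 1 < a) (hb : 1 < b) (hab : a.Coprime b) (χ ψ : IrrCharacter G)
    (hχ : charDegree (χ : G → ℂ) = a) (hψ : charDegree (ψ : G → ℂ) = b)
    (hZ : ∀ g : G, g ≠ 1 → ‖(ψ : G → ℂ) g‖ ≠ b) :
    ¬ AllDeg a (fun g => (χ : G → ℂ) g * (ψ : G → ℂ) g) := by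
  classical
  intro hall
  have hne : a ≠ b := fun h => by subst h; rw [Nat.coprime_self] at hab; omega
  let ψb : IrrCharacter G := ⟨fun g => conj ((ψ : G → ℂ) g), irr_star ψ.2⟩
  have hψb : charDegree (ψb : G → ℂ) = b := by
    have h1 := apply_one_irr ψb
    change conj ((ψ : G → ℂ) 1) = _ at h1
    rw [apply_one_irr, Complex.conj_natCast, Nat.cast_inj, hψ] at h1
    exact h1.symm
  let Good : IrrCharacter G → Prop := fun ξ =>
    charDegree (ξ : G → ℂ) = a ∧ AllDeg a (fun g => (ξ : G → ℂ) g * (ψ : G → ℂ) g)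
  let F : G → ℂ := fun g => (ψ : G → ℂ) g * conj ((ψ : G → ℂ) g)
  have hFc : IsCharacter G F := Clifford.isCharacter_mul (isCharacter_of_irr ψ.2) (isCharacter_of_irr ψb.2)
  have hstep : ∀ ξ : IrrCharacter G, Good ξ → ∀ η : IrrCharacter G,
      classInner (fun g => (ξ : G → ℂ) g * F g) (η : G → ℂ) ≠ 0 → Good η := by
    intro ξ hξ η hη
    have hc : IsCharacter G (fun g => (ξ : G → ℂ) g * (ψ : G → ℂ) g) :=
      Clifford.isCharacter_mul (isCharacter_of_irr ξ.2) (isCharacter_of_irr ψ.2)
    have e : (fun g => (ξ : G → ℂ) g * F g) =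
        fun g => (fun g => (ξ : G → ℂ) g * (ψ : G → ℂ) g) g * conj ((ψ : G → ℂ) g) := by
      funext g; simp only [F]; ring
    rw [e] at hη
    obtain ⟨θ, hθ1, hθ2⟩ := exists_part hc _ hη
    have hθa : charDegree (θ : G → ℂ) = a := hξ.2 θ hθ1
    -- `θ ψ̄` lies in degree `a`
    have h1 : classInner (fun g => (θ : G → ℂ) g * conj ((ψ : G → ℂ) g)) (ξ : G → ℂ) ≠ 0 := by
      rw [inner_mul_right]
      simp only [Complex.conj_conj]
      exact inner_swap hθ1
    have hθall : AllDeg a (fun g => (θ : G → ℂ) g * (ψb : G → ℂ) g) :=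
      (dichotomy h3 ha hb hab θ ψb hθa hψb).resolve_right fun h => hne (hξ.1.symm.trans (h ξ h1))
    have hηa : charDegree (η : G → ℂ) = a := hθall η hθ2
    refine ⟨hηa, (dichotomy h3 ha hb hab η ψ hηa hψ).resolve_right fun h => hne (hθa.symm.trans (h θ ?_))⟩
    rw [inner_mul_right]
    exact inner_swap hθ2
  have hpow : ∀ n : ℕ, IsCharacter G (fun g => (χ : G → ℂ) g * F g ^ n) ∧
      ∀ η : IrrCharacter G, classInner (fun g => (χ : G → ℂ) g * F g ^ n) (η : G → ℂ) ≠ 0 → Good η := by
    intro n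
    induction n with
    | zero =>
      simp only [pow_zero, mul_one]
      refine ⟨isCharacter_of_irr χ.2, fun η hη => ?_⟩
      by_cases h : η = χ
      · exact h ▸ ⟨hχ, hall⟩
      · exact absurd (classInner_ne χ.2 η.2 fun h' => h (Subtype.ext h'.symm)) hη
    | succ n ih =>
      have e : (fun g => (χ : G → ℂ) g * F g ^ (n + 1)) =
          fun g => (fun g => (χ : G → ℂ) g * F g ^ n) g * F g := by
        funext g; simp only [pow_succ]; ring
      rw [e]
      refine ⟨Clifford.isCharacter_mul ih.1 hFc, fun η hη => ?_⟩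
      obtain ⟨ξ, h1, h2⟩ := exists_part ih.1 _ hη
      exact hstep ξ (ih.2 ξ h1) η h2
  have hsum0 : ∀ n : ℕ, ∑ g, (χ : G → ℂ) g * F g ^ n = 0 := by
    intro n
    by_contra hne0
    have h1 : classInner (fun g => (χ : G → ℂ) g * F g ^ n) ((oneChar : IrrCharacter G) : G → ℂ) ≠ 0 := by
      rw [show ((oneChar : IrrCharacter G) : G → ℂ) = fun _ => (1 : ℂ) from rfl, classInner_one]
      exact mul_ne_zero (inv_ne_zero (Nat.cast_ne_zero.2 Nat.card_pos.ne')) hne0
    have h2 := ((hpow n).2 oneChar h1).1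
    simp [charDegree, oneChar] at h2
    omega
  let P : Polynomial ℂ := ∏ v ∈ (Finset.univ.erase (1 : G)).image F, (Polynomial.X - Polynomial.C v)
  have h0 := sum_mul_eval (χ : G → ℂ) F hsum0 P
  have hz : ∀ g : G, g ≠ 1 → P.eval (F g) = 0 := fun g hg => by
    rw [Polynomial.eval_prod]
    exact Finset.prod_eq_zero (Finset.mem_image_of_mem F (Finset.mem_erase.2 ⟨hg, Finset.mem_univ g⟩)) (by simp)
  rw [Finset.sum_eq_single 1 (fun g _ hg => by rw [hz g hg, mul_zero]) (by simp)] at h0
  rcases mul_eq_zero.1 h0 with h | h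
  · exact apply_one_ne_zero χ.2 h
  · rw [Polynomial.eval_prod, Finset.prod_eq_zero_iff] at h
    obtain ⟨v, hv, hv0⟩ := h
    obtain ⟨g, hg, rfl⟩ := Finset.mem_image.1 hv
    simp only [Polynomial.eval_sub, Polynomial.eval_X, Polynomial.eval_C, sub_eq_zero, F, Complex.mul_conj,
      Complex.ofReal_inj] at hv0
    refine hZ g (Finset.mem_erase.1 hg).1 ?_
    rw [apply_one_irr, hψ, Complex.normSq_natCast, Complex.normSq_eq_norm_sq] at hv0
    have : (‖(ψ : G → ℂ) g‖) ^ 2 = (b : ℝ) ^ 2 := by rw [← hv0, sq]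
    exact (pow_left_inj₀ (norm_nonneg _) (by positivity) two_ne_zero).1 this

/-- No such group has characters of both degrees attaining their degree only at `1`. -/
theorem false_of_two (h3 : Three a b G) (ha : 1 < a) (hb : 1 < b) (hab : a.Coprime b) (χ ψ : IrrCharacter G)
    (hχ : charDegree (χ : G → ℂ) = a) (hψ : charDegree (ψ : G → ℂ) = b)
    (hχZ : ∀ g : G, g ≠ 1 → ‖(χ : G → ℂ) g‖ ≠ a) (hψZ : ∀ g : G, g ≠ 1 → ‖(ψ : G → ℂ) g‖ ≠ b) : False := by
  rcases dichotomy h3 ha hb hab χ ψ hχ hψ with h | h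
  · exact not_allDeg h3 ha hb hab χ ψ hχ hψ hψZ h
  · refine not_allDeg h3.symm hb ha hab.symm ψ χ hψ hχ hχZ ?_
    rwa [show (fun g => (ψ : G → ℂ) g * (χ : G → ℂ) g) = fun g => (χ : G → ℂ) g * (ψ : G → ℂ) g from
      funext fun g => mul_comm _ _]

end CfsgLib.ThreeDeg
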